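import Mathlib
import Cfsg.Agent.Lib.Helper43.OMinusBal.Defs
import Cfsg.Agent.Lib.Helper8.GraphInvOdd
import Cfsg.Agent.Lib.Helper14.Eichler

/-!
# S2733, package P-GB1: graph involutions of the first kind

`g` an isometric involution of determinant `-1`: a set `S` of semisimilarities as in `SData`
consists of scalars and scalar multiples of `g`.
-/

set_option autoImplicit false

namespace Cfsg.Agent.Lib.Helper97.OMinusBal

open Cfsg.Agent.Lib.Helper14 Cfsg.Agent.Lib.Helper43.OMinusBal Matrix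

universe u

section prelim

variable {F : Type u} [Field F] {ι : Type} [Fintype ι] [DecidableEq ι]

/-- The abstract Siegel map of the polar form is an Eichler matrix. -/
theorem siegel_eq_eichMat (Q : QuadraticForm F (ι → F)) (h2 : (2 : F) ≠ 0) (u w x : ι → F) :
    siegel (QuadraticMap.polarBilin Q) u w x = eichMat Q u (-w) *ᵥ x := by
  rw [eichMat_mulVec]
  simp only [siegel, QuadraticMap.polarBilin_apply_apply]
  have h1 : QuadraticMap.polar ⇑Q w w = 2 * Q w := polar_self_eq Q w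
  have h3 : Q (-w) = Q w := QuadraticMap.map_neg Q w
  have h4 : 2 * Q w / 2 = Q w := by field_simp
  rw [QuadraticMap.polar_neg_left, h3, h1, h4, QuadraticMap.polar_comm (⇑Q) x w,
    QuadraticMap.polar_comm (⇑Q) x u]
  module

theorem eichMat_mul_neg (Q : QuadraticForm F (ι → F)) {u w : ι → F} (hu : Q u = 0)
    (huw : QuadraticMap.polar ⇑Q u w = 0) : eichMat Q u w * eichMat Q u (-w) = 1 := by
  have h : QuadraticMap.polar ⇑Q u (-w) = 0 := by
    rw [QuadraticMap.polar_neg_right, huw, neg_zero]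
  rw [eichMat_mul Q hu huw h, add_neg_cancel, eichMat_zero_right]

theorem eichMat_neg_mul (Q : QuadraticForm F (ι → F)) {u w : ι → F} (hu : Q u = 0)
    (huw : QuadraticMap.polar ⇑Q u w = 0) : eichMat Q u (-w) * eichMat Q u w = 1 := by
  have h : QuadraticMap.polar ⇑Q u (-w) = 0 := by
    rw [QuadraticMap.polar_neg_right, huw, neg_zero]
  rw [eichMat_mul Q hu h huw, neg_add_cancel, eichMat_zero_right]

/-- The Eichler transformation as an element of `GL`. -/
def eichGL (Q : QuadraticForm F (ι → F)) (u w : ι → F) (hu : Q u = 0)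
    (huw : QuadraticMap.polar ⇑Q u w = 0) : GL ι F :=
  ⟨eichMat Q u w, eichMat Q u (-w), eichMat_mul_neg Q hu huw, eichMat_neg_mul Q hu huw⟩

theorem eichGL_coe (Q : QuadraticForm F (ι → F)) (u w : ι → F) (hu : Q u = 0)
    (huw : QuadraticMap.polar ⇑Q u w = 0) :
    ((eichGL Q u w hu huw : GL ι F) : Matrix ι ι F) = eichMat Q u w := rfl

theorem eichGL_inv_coe (Q : QuadraticForm F (ι → F)) (u w : ι → F) (hu : Q u = 0)
    (huw : QuadraticMap.polar ⇑Q u w = 0) :
    (((eichGL Q u w hu huw)⁻¹ : GL ι F) : Matrix ι ι F) = eichMat Q u (-w) := rfl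

theorem eichMat_pow (Q : QuadraticForm F (ι → F)) {u w : ι → F} (hu : Q u = 0)
    (huw : QuadraticMap.polar ⇑Q u w = 0) (n : ℕ) :
    eichMat Q u w ^ n = eichMat Q u (n • w) := by
  induction n with
  | zero => rw [pow_zero, zero_smul, eichMat_zero_right]
  | succ n ih =>
    have h : QuadraticMap.polar ⇑Q u (n • w) = 0 := by
      rw [← Nat.cast_smul_eq_nsmul F, QuadraticMap.polar_smul_right, huw, smul_zero]
    rw [pow_succ, ih, eichMat_mul Q hu h huw, succ_nsmul]

theorem eichGL_pow_char (Q : QuadraticForm F (ι → F)) (r : ℕ) [CharP F r] (u w : ι → F)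
    (hu : Q u = 0) (huw : QuadraticMap.polar ⇑Q u w = 0) : eichGL Q u w hu huw ^ r = 1 := by
  apply Units.ext
  rw [Units.val_pow_eq_pow_val, eichGL_coe, eichMat_pow Q hu huw, Units.val_one]
  have h : (r • w : ι → F) = 0 := by
    rw [← Nat.cast_smul_eq_nsmul F, CharP.cast_eq_zero, zero_smul]
  rw [h, eichMat_zero_right]

/-- An Eichler matrix along vectors of an eigenspace of an isometric involution commutes with
it. -/
theorem eichMat_comm (Q : QuadraticForm F (ι → F)) (g : Matrix ι ι F)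
    (hgQ : ∀ v, Q (g *ᵥ v) = Q v) (ε : F) (hε : ε * ε = 1) (u w : ι → F)
    (hgu : g *ᵥ u = ε • u) (hgw : g *ᵥ w = ε • w) :
    eichMat Q u w * g = g * eichMat Q u w := by
  rw [eichMat_conj Q g hgQ u w, hgu, hgw, eichMat_smul_left, smul_smul, hε, one_smul]

theorem sact_inl (e : GL ι F) (v : ι → F) :
    sact (SemidirectProduct.inl e : SemiGL ι F) v = (e : Matrix ι ι F) *ᵥ v := by
  unfold sact
  rw [SemidirectProduct.left_inl, SemidirectProduct.right_inl]
  rfl

theorem sact_pow (s : SemiGL ι F) (k : ℕ) (v : ι → F) : sact (s ^ k) v = (sact s)^[k] v := by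
  induction k generalizing v with
  | zero => rw [pow_zero, sact_one, Function.iterate_zero, id]
  | succ k ih => rw [pow_succ, sact_mul, ih, Function.iterate_succ_apply]

theorem sact_neg (s : SemiGL ι F) (v : ι → F) : sact s (-v) = -sact s v := by
  have h := sact_smul s (-1 : F) v
  rw [map_neg, map_one] at h
  simpa using h

theorem sact_of_right_eq_one (s : SemiGL ι F) (h : s.right = 1) (v : ι → F) :
    sact s v = (s.left : Matrix ι ι F) *ᵥ v := by
  unfold sact
  rw [h]
  rfl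

theorem sact_zero (s : SemiGL ι F) : sact s (0 : ι → F) = 0 := by
  have h := sact_smul s (0 : F) (0 : ι → F)
  simpa using h

theorem coe_siegel_restrict {V : Type*} [AddCommGroup V] [Module F V]
    (B : LinearMap.BilinForm F V) (W : Submodule F V) (u w x : W) :
    ((siegel (B.restrict W) u w x : W) : V) = siegel B (u : V) (w : V) (x : V) := rfl

end prelim

section main

variable {F : Type u} [Field F] [Fintype F] {ι : Type} [Fintype ι] [DecidableEq ι]

/-- The set of maps induced on an `S`-invariant subspace. -/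
def indSet (S : Set (SemiGL ι F)) (W : Submodule F (ι → F)) : Set (W → W) :=
  {ψ | ∃ s ∈ S, ∀ x : W, ((ψ x : W) : ι → F) = sact s x}

omit [Fintype F] in
theorem mdata_indSet (Q : QuadraticForm F (ι → F)) (r : ℕ) [Fact r.Prime] [CharP F r]
    (hr2 : r ≠ 2) (g : Matrix ι ι F) (hgQ : ∀ v, Q (g *ᵥ v) = Q v)
    (S : Set (SemiGL ι F)) (hS : SData Q r g S)
    (W : Submodule F (ι → F)) (ε : F) (hε : ε * ε = 1) (hWg : ∀ x ∈ W, g *ᵥ x = ε • x)
    (hWS : ∀ s ∈ S, ∀ x ∈ W, sact s x ∈ W) :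
    MData (LinearMap.BilinForm.restrict (QuadraticMap.polarBilin Q) W) (indSet S W) := by
  have h2 : (2 : F) ≠ 0 := two_ne_zero_of_charP r hr2
  refine ⟨?_, ?_, ?_, ?_⟩
  · -- semi
    rintro ψ ⟨s, hs, hψ⟩
    obtain ⟨c, hc⟩ := (mem_semiSim_iff (⇑Q) s).mp (hS.semi s hs)
    refine ⟨s.right, (c : F), c.ne_zero, ?_, ?_, ?_⟩
    · intro x y
      apply Subtype.ext
      rw [Submodule.coe_add, hψ, hψ, hψ, Submodule.coe_add, sact_add]
    · intro t x
      apply Subtype.ext
      rw [Submodule.coe_smul, hψ, hψ, Submodule.coe_smul, sact_smul]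
    · intro x y
      show QuadraticMap.polarBilin Q (ψ x : ι → F) (ψ y : ι → F) =
        (c : F) * s.right (QuadraticMap.polarBilin Q (x : ι → F) (y : ι → F))
      rw [QuadraticMap.polarBilin_apply_apply, QuadraticMap.polarBilin_apply_apply, hψ, hψ]
      unfold QuadraticMap.polar
      rw [← sact_add, hc, hc, hc, map_sub, map_sub]
      ring
  · -- mul
    rintro ψ ⟨s, hs, hψ⟩ ψ' ⟨s', hs', hψ'⟩
    refine ⟨s * s', hS.mul s hs s' hs', fun x => ?_⟩
    rw [Function.comp_apply, hψ, hψ', sact_mul]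
  · -- inv
    rintro ψ ⟨s, hs, hψ⟩
    have hs' : s⁻¹ ∈ S := hS.inv s hs
    refine ⟨fun x => ⟨sact s⁻¹ x, hWS s⁻¹ hs' x x.2⟩, ⟨s⁻¹, hs', fun x => rfl⟩, ?_, ?_⟩
    · funext x
      apply Subtype.ext
      rw [Function.comp_apply, hψ]
      exact sact_sact_inv s x
    · funext x
      apply Subtype.ext
      show sact s⁻¹ (ψ x : ι → F) = x
      rw [hψ, sact_inv_sact]
  · -- conj
    rintro ψ ⟨s, hs, hψ⟩ u w huu huw
    have huu' : QuadraticMap.polar ⇑Q (u : ι → F) (u : ι → F) = 0 :=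
      (QuadraticMap.polarBilin_apply_apply Q _ _).symm.trans huu
    have huw' : QuadraticMap.polar ⇑Q (u : ι → F) (w : ι → F) = 0 :=
      (QuadraticMap.polarBilin_apply_apply Q _ _).symm.trans huw
    have hu : Q (u : ι → F) = 0 := by
      rw [polar_self_eq] at huu'
      rcases mul_eq_zero.mp huu' with h | h
      · exact absurd h h2
      · exact h
    have huw'' : QuadraticMap.polar ⇑Q (u : ι → F) (-(w : ι → F)) = 0 := by
      rw [QuadraticMap.polar_neg_right, huw', neg_zero]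
    have hcomm : ((eichGL Q (u : ι → F) (-(w : ι → F)) hu huw'' : GL ι F) : Matrix ι ι F) * g =
        g * ((eichGL Q (u : ι → F) (-(w : ι → F)) hu huw'' : GL ι F) : Matrix ι ι F) := by
      rw [eichGL_coe]
      refine eichMat_comm Q g hgQ ε hε _ _ (hWg u u.2) ?_
      rw [mulVec_neg, hWg w w.2, smul_neg]
    refine ⟨_, hS.conj s hs (eichGL Q (u : ι → F) (-(w : ι → F)) hu huw'')
      (fun v => eichMat_isometry Q hu huw'' v) hcomm
      (eichGL_pow_char Q r _ _ hu huw''), fun x => ?_⟩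
    rw [Function.comp_apply, Function.comp_apply, coe_siegel_restrict, hψ, coe_siegel_restrict,
      siegel_eq_eichMat Q h2, siegel_eq_eichMat Q h2, sact_mul, sact_mul, ← map_inv, sact_inl,
      sact_inl, eichGL_coe, eichGL_inv_coe, Submodule.coe_neg]

theorem scalar_on (hW : LemW.{u, u}) (hI : LemIso.{u, u})
    (Q : QuadraticForm F (ι → F)) (r : ℕ) [Fact r.Prime] [CharP F r]
    (hr2 : r ≠ 2) (g : Matrix ι ι F) (hgQ : ∀ v, Q (g *ᵥ v) = Q v)
    (S : Set (SemiGL ι F)) (hS : SData Q r g S)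
    (W : Submodule F (ι → F)) (ε : F) (hε : ε * ε = 1) (hWg : ∀ x ∈ W, g *ᵥ x = ε • x)
    (hWS : ∀ s ∈ S, ∀ x ∈ W, sact s x ∈ W)
    (hWnd : ∀ x ∈ W, (∀ y ∈ W, QuadraticMap.polar ⇑Q x y = 0) → x = 0)
    (hdim : Module.finrank F W = 3 ∨ 5 ≤ Module.finrank F W) :
    ∀ s ∈ S, ∃ α : F, ∀ x ∈ W, sact s x = α • x := by
  intro s hs
  have h2 : (2 : F) ≠ 0 := two_ne_zero_of_charP r hr2
  have hsym : ∀ x y : W, LinearMap.BilinForm.restrict (QuadraticMap.polarBilin Q) W x y =
      LinearMap.BilinForm.restrict (QuadraticMap.polarBilin Q) W y x := by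
    intro x y
    show QuadraticMap.polarBilin Q (x : ι → F) y = QuadraticMap.polarBilin Q (y : ι → F) x
    rw [QuadraticMap.polarBilin_apply_apply, QuadraticMap.polarBilin_apply_apply,
      QuadraticMap.polar_comm]
  have hnd : ∀ x : W, (∀ y, LinearMap.BilinForm.restrict (QuadraticMap.polarBilin Q) W x y = 0) → x = 0 := by
    intro x hx
    apply Subtype.ext
    refine hWnd x x.2 (fun y hy => ?_)
    have h := hx ⟨y, hy⟩
    exact (QuadraticMap.polarBilin_apply_apply Q _ _).symm.trans h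
  have hd3 : 3 ≤ Module.finrank F W := by
    rcases hdim with h | h <;> omega
  have hiso := hI (LinearMap.BilinForm.restrict (QuadraticMap.polarBilin Q) W) h2 hsym hnd hd3
  have hM := mdata_indSet Q r hr2 g hgQ S hS W ε hε hWg hWS
  have hodd : ∀ ψ ∈ indSet S W, ∃ (k : ℕ) (α : F), Odd k ∧ ∀ x, ψ^[k] x = α • x := by
    rintro ψ ⟨t, ht, hψ⟩
    obtain ⟨k, lam, hk, hlam⟩ := hS.odd t ht
    refine ⟨k, lam, hk, fun x => ?_⟩
    apply Subtype.ext
    have hit : ∀ (n : ℕ) (x : W), ((ψ^[n] x : W) : ι → F) = (sact t)^[n] x := by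
      intro n
      induction n with
      | zero => intro x; rfl
      | succ n ih =>
        intro x
        rw [Function.iterate_succ_apply, Function.iterate_succ_apply, ih, hψ]
    rw [hit, ← sact_pow, hlam, Submodule.coe_smul]
  have key := hW r hr2 (LinearMap.BilinForm.restrict (QuadraticMap.polarBilin Q) W) hsym hnd hdim hiso
    (indSet S W) hM hodd
  obtain ⟨α, hα⟩ := key (fun x => ⟨sact s x, hWS s hs x x.2⟩) ⟨s, hs, fun x => rfl⟩
  refine ⟨α, fun x hx => ?_⟩
  exact congrArg Subtype.val (hα ⟨x, hx⟩)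

omit [Fintype F] in
/-- If an element acts as a scalar on a nonzero subspace, its field automorphism is trivial. -/
theorem right_eq_one_of_scalar (t : SemiGL ι F) (W : Submodule F (ι → F)) (x₀ : ι → F)
    (hx₀ : x₀ ∈ W) (hx₀0 : x₀ ≠ 0) (α : F) (hα : ∀ x ∈ W, sact t x = α • x) : t.right = 1 := by
  have hα0 : α ≠ 0 := by
    intro h0
    apply hx₀0
    apply sact_injective t
    rw [hα x₀ hx₀, h0, zero_smul, sact_zero]
  apply RingEquiv.ext
  intro c
  have h1 := hα (c • x₀) (W.smul_mem c hx₀)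
  rw [sact_smul, hα x₀ hx₀, smul_smul, smul_smul] at h1
  have h3 : (t.right c * α - α * c) • x₀ = 0 := by
    rw [sub_smul, h1, sub_self]
  rcases smul_eq_zero.mp h3 with h4 | h4
  · have h5 : t.right c * α = c * α := by linear_combination h4
    exact mul_right_cancel₀ hα0 h5
  · exact absurd h4 hx₀0

/-- Scalar action on an invariant subspace of odd dimension, for linear elements. -/
theorem scalar_on_odd (hW : LemW.{u, u}) (hI : LemIso.{u, u})
    (Q : QuadraticForm F (ι → F)) (r : ℕ) [Fact r.Prime] [CharP F r]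
    (hr2 : r ≠ 2) (g : Matrix ι ι F) (hgQ : ∀ v, Q (g *ᵥ v) = Q v)
    (S : Set (SemiGL ι F)) (hS : SData Q r g S)
    (W : Submodule F (ι → F)) (ε : F) (hε : ε * ε = 1) (hWg : ∀ x ∈ W, g *ᵥ x = ε • x)
    (hWS : ∀ s ∈ S, ∀ x ∈ W, sact s x ∈ W)
    (hWnd : ∀ x ∈ W, (∀ y ∈ W, QuadraticMap.polar ⇑Q x y = 0) → x = 0)
    (hdim : Odd (Module.finrank F W)) (s : SemiGL ι F) (hs : s ∈ S) (hright : s.right = 1) :
    ∃ α : F, ∀ x ∈ W, sact s x = α • x := by
  by_cases h1 : Module.finrank F W = 1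
  · obtain ⟨v, hv0, hv⟩ := finrank_eq_one_iff'.mp h1
    obtain ⟨c, hc⟩ := hv ⟨sact s v, hWS s hs v v.2⟩
    have hc' : sact s (v : ι → F) = c • (v : ι → F) := by
      have h := congrArg Subtype.val hc
      rw [Submodule.coe_smul] at h
      exact h.symm
    refine ⟨c, fun x hx => ?_⟩
    obtain ⟨c', hc''⟩ := hv ⟨x, hx⟩
    have hx' : x = c' • (v : ι → F) := by
      have h := congrArg Subtype.val hc''
      rw [Submodule.coe_smul] at h
      exact h.symm
    rw [hx', sact_smul, hright, hc', smul_smul, smul_smul]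
    show ((1 : RingAut F) c' * c) • (v : ι → F) = (c * c') • (v : ι → F)
    rw [RingAut.one_apply, mul_comm]
  · have hdim' : Module.finrank F W = 3 ∨ 5 ≤ Module.finrank F W := by
      rcases hdim with ⟨k, hk⟩
      omega
    exact scalar_on hW hI Q r hr2 g hgQ S hS W ε hε hWg hWS hWnd hdim' s hs

omit [Fintype F] [Fintype ι] [DecidableEq ι] in
theorem exists_quad_ne_zero (Q : QuadraticForm F (ι → F)) (W : Submodule F (ι → F))
    (hWnd : ∀ x ∈ W, (∀ y ∈ W, QuadraticMap.polar ⇑Q x y = 0) → x = 0) (hW0 : W ≠ ⊥) :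
    ∃ x ∈ W, Q x ≠ 0 := by
  by_contra h
  push Not at h
  apply hW0
  rw [Submodule.eq_bot_iff]
  intro x hx
  refine hWnd x hx (fun y hy => ?_)
  unfold QuadraticMap.polar
  rw [h _ (W.add_mem hx hy), h x hx, h y hy]
  simp

/-- Package P-GB1 of S2733. -/
theorem gb1 (hW : LemW.{u, u}) (hI : LemIso.{u, u}) : GB1.{u} := by
  intro F _ _ ι _ _ Q hQ r _ _ hr2 hcard hev g hgg hgQ hdet S hS s hs
  have h2 : (2 : F) ≠ 0 := two_ne_zero_of_charP r hr2
  obtain ⟨f, hf⟩ : ∃ f : (ι → F) →ₗ[F] (ι → F), f = Matrix.toLin' g := ⟨_, rfl⟩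
  have hfa : ∀ x, f x = g *ᵥ x := by
    intro x
    rw [hf, toLin'_apply]
  have hgg' : ∀ x, g *ᵥ (g *ᵥ x) = x := by
    intro x
    rw [mulVec_mulVec, hgg, one_mulVec]
  have hff : ∀ x, f (f x) = x := by
    intro x
    rw [hfa, hfa, hgg']
  obtain ⟨hdetf, hdimsum⟩ := Cfsg.Agent.Lib.Helper8.GraphInvOdd.det_involution h2 f hff
  rw [hf, LinearMap.det_toLin', hdet, ← hf] at hdetf
  rw [Module.finrank_fintype_fun_eq_card] at hdimsum
  obtain ⟨Vp, hVp⟩ : ∃ p : Submodule F (ι → F), p = LinearMap.ker (f - LinearMap.id) := ⟨_, rfl⟩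
  obtain ⟨Vm, hVm⟩ : ∃ q : Submodule F (ι → F), q = LinearMap.ker (f + LinearMap.id) := ⟨_, rfl⟩
  rw [← hVp, ← hVm] at hdimsum
  rw [← hVm] at hdetf
  have hpm : ∀ x, x ∈ Vp ↔ g *ᵥ x = x := by
    intro x
    rw [hVp, LinearMap.mem_ker, LinearMap.sub_apply, LinearMap.id_apply, sub_eq_zero, hfa]
  have hmm : ∀ x, x ∈ Vm ↔ g *ᵥ x = -x := by
    intro x
    rw [hVm, LinearMap.mem_ker, LinearMap.add_apply, LinearMap.id_apply,
      add_eq_zero_iff_eq_neg, hfa]
  -- parities
  have hdm : Odd (Module.finrank F Vm) := by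
    by_contra hne
    rw [Nat.not_odd_iff_even] at hne
    rw [hne.neg_one_pow] at hdetf
    apply h2
    linear_combination -hdetf
  have hdp : Odd (Module.finrank F Vp) := by
    rcases hev with ⟨m, hm⟩
    rcases hdm with ⟨k, hk⟩
    refine ⟨m - k - 1, ?_⟩
    omega
  -- decomposition
  have hdecomp : ∀ x : ι → F, ∃ a ∈ Vp, ∃ b ∈ Vm, x = a + b := by
    intro x
    refine ⟨(2 : F)⁻¹ • (x + g *ᵥ x), ?_, (2 : F)⁻¹ • (x - g *ᵥ x), ?_, ?_⟩
    · rw [hpm, mulVec_smul, mulVec_add, hgg', add_comm]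
    · rw [hmm, mulVec_smul, mulVec_sub, hgg', ← smul_neg, neg_sub]
    · rw [← smul_add, add_add_sub_cancel, ← two_smul F x, smul_smul, inv_mul_cancel₀ h2,
        one_smul]
  -- orthogonality
  have horth : ∀ a ∈ Vp, ∀ b ∈ Vm, QuadraticMap.polar ⇑Q a b = 0 := by
    intro a ha b hb
    have h := polar_mulVec Q g hgQ a b
    rw [(hpm a).mp ha, (hmm b).mp hb, QuadraticMap.polar_neg_right] at h
    have h3 : (2 : F) * QuadraticMap.polar ⇑Q a b = 0 := by linear_combination -h
    rcases mul_eq_zero.mp h3 with h4 | h4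
    · exact absurd h4 h2
    · exact h4
  have hndp : ∀ x ∈ Vp, (∀ y ∈ Vp, QuadraticMap.polar ⇑Q x y = 0) → x = 0 := by
    intro x hx hxy
    refine hQ.1 x (fun v => ?_)
    obtain ⟨a, ha, b, hb, rfl⟩ := hdecomp v
    rw [QuadraticMap.polarBilin_apply_apply, QuadraticMap.polar_add_right, hxy a ha,
      horth x hx b hb, add_zero]
  have hndm : ∀ x ∈ Vm, (∀ y ∈ Vm, QuadraticMap.polar ⇑Q x y = 0) → x = 0 := by
    intro x hx hxy
    refine hQ.1 x (fun v => ?_)
    obtain ⟨a, ha, b, hb, rfl⟩ := hdecomp v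
    rw [QuadraticMap.polarBilin_apply_apply, QuadraticMap.polar_add_right, hxy b hb,
      QuadraticMap.polar_comm, horth a ha x hx, add_zero]
  -- a nonzero vector
  have hVp0 : Vp ≠ ⊥ := by
    intro h0
    rw [h0, finrank_bot] at hdp
    exact absurd hdp (by decide)
  have hVm0 : Vm ≠ ⊥ := by
    intro h0
    rw [h0, finrank_bot] at hdm
    exact absurd hdm (by decide)
  obtain ⟨v₀, hv₀, hv₀0⟩ := (Submodule.ne_bot_iff Vp).mp hVp0
  obtain ⟨v₁, hv₁, hv₁0⟩ := (Submodule.ne_bot_iff Vm).mp hVm0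
  -- every element of `S` commutes with `g`
  have hcomm1 : ∀ t ∈ S, ∀ v, sact t (g *ᵥ v) = g *ᵥ sact t v := by
    intro t ht
    obtain ⟨lam, hlam⟩ := hS.comm t ht
    have hl2 : lam * lam = 1 := by
      have h1 : sact t v₀ = (lam * lam) • sact t v₀ := by
        have h3 := hlam (g *ᵥ v₀)
        rw [hgg', hlam v₀, mulVec_smul, hgg', smul_smul] at h3
        exact h3
      have h4 : sact t v₀ ≠ 0 := by
        intro h0
        apply hv₀0
        apply sact_injective t
        rw [h0, sact_zero]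
      have h5 : (1 - lam * lam) • sact t v₀ = 0 := by
        rw [sub_smul, one_smul, ← h1, sub_self]
      rcases smul_eq_zero.mp h5 with h6 | h6
      · linear_combination -h6
      · exact absurd h6 h4
    rcases mul_self_eq_one_iff.mp hl2 with h1 | h1
    · intro v
      rw [hlam v, h1, one_smul]
    · exfalso
      obtain ⟨k, lam', hk, hlam'⟩ := hS.odd t ht
      have hpow : ∀ (n : ℕ) (v : ι → F),
          sact (t ^ n) (g *ᵥ v) = (-1 : F) ^ n • (g *ᵥ sact (t ^ n) v) := by
        intro n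
        induction n with
        | zero =>
          intro v
          rw [pow_zero, sact_one, sact_one, pow_zero, one_smul]
        | succ n ih =>
          intro v
          rw [pow_succ, sact_mul, sact_mul, hlam v, h1, neg_smul, one_smul, sact_neg, ih,
            pow_succ, mul_neg_one, neg_smul]
      have h3 := hpow k (g *ᵥ v₀)
      rw [hgg', hlam', hlam', hk.neg_one_pow, neg_smul, one_smul, mulVec_smul, hgg'] at h3
      have h4 : (2 * lam') • v₀ = 0 := by
        rw [mul_smul, two_smul]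
        nth_rewrite 1 [h3]
        rw [neg_add_cancel]
      rcases smul_eq_zero.mp h4 with h5 | h5
      · rcases mul_eq_zero.mp h5 with h6 | h6
        · exact h2 h6
        · apply hv₀0
          apply sact_injective (t ^ k)
          rw [hlam', h6, zero_smul, sact_zero]
      · exact hv₀0 h5
  have hWSp : ∀ t ∈ S, ∀ x ∈ Vp, sact t x ∈ Vp := by
    intro t ht x hx
    rw [hpm, ← hcomm1 t ht, (hpm x).mp hx]
  have hWSm : ∀ t ∈ S, ∀ x ∈ Vm, sact t x ∈ Vm := by
    intro t ht x hx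
    rw [hmm, ← hcomm1 t ht, (hmm x).mp hx, sact_neg]
  have hgp : ∀ x ∈ Vp, g *ᵥ x = (1 : F) • x := by
    intro x hx
    rw [(hpm x).mp hx, one_smul]
  have hgm : ∀ x ∈ Vm, g *ᵥ x = (-1 : F) • x := by
    intro x hx
    rw [(hmm x).mp hx, neg_smul, one_smul]
  have hε1 : (1 : F) * 1 = 1 := one_mul 1
  have hε2 : (-1 : F) * (-1) = 1 := by ring
  -- the field automorphism is trivial
  have hright : ∀ t ∈ S, t.right = 1 := by
    intro t ht
    by_cases hbig : 5 ≤ Module.finrank F Vp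
    · obtain ⟨α, hα⟩ := scalar_on hW hI Q r hr2 g hgQ S hS Vp 1 hε1 hgp hWSp hndp (Or.inr hbig)
        t ht
      exact right_eq_one_of_scalar t Vp v₀ hv₀ hv₀0 α hα
    · have hbig' : 5 ≤ Module.finrank F Vm := by
        rcases hdm with ⟨k, hk⟩
        rcases hdp with ⟨j, hj⟩
        omega
      obtain ⟨α, hα⟩ := scalar_on hW hI Q r hr2 g hgQ S hS Vm (-1) hε2 hgm hWSm hndm
        (Or.inr hbig') t ht
      exact right_eq_one_of_scalar t Vm v₁ hv₁ hv₁0 α hα
  have hsr : s.right = 1 := hright s hs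
  obtain ⟨αp, hαp⟩ := scalar_on_odd hW hI Q r hr2 g hgQ S hS Vp 1 hε1 hgp hWSp hndp hdp s hs hsr
  obtain ⟨αm, hαm⟩ := scalar_on_odd hW hI Q r hr2 g hgQ S hS Vm (-1) hε2 hgm hWSm hndm hdm s hs
    hsr
  -- the multiplier
  obtain ⟨c, hc⟩ := (mem_semiSim_iff (⇑Q) s).mp (hS.semi s hs)
  have hc' : ∀ v, Q (sact s v) = (c : F) * Q v := by
    intro v
    rw [hc, hsr]
    rfl
  obtain ⟨xp, hxp, hQxp⟩ := exists_quad_ne_zero Q Vp hndp hVp0
  obtain ⟨xm, hxm, hQxm⟩ := exists_quad_ne_zero Q Vm hndm hVm0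
  have hp2 : αp * αp = (c : F) := by
    have h := hc' xp
    rw [hαp xp hxp, QuadraticMap.map_smul, smul_eq_mul] at h
    exact mul_right_cancel₀ hQxp h
  have hm2 : αm * αm = (c : F) := by
    have h := hc' xm
    rw [hαm xm hxm, QuadraticMap.map_smul, smul_eq_mul] at h
    exact mul_right_cancel₀ hQxm h
  have hpmα : αm = αp ∨ αm = -αp := by
    have h : (αm - αp) * (αm + αp) = 0 := by linear_combination hm2 - hp2
    rcases mul_eq_zero.mp h with h1 | h1
    · left; linear_combination h1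
    · right; linear_combination h1
  refine ⟨hsr, ?_⟩
  rcases hpmα with h | h
  · left
    refine ⟨αp, ext_iff_mulVec.mpr (fun v => ?_)⟩
    obtain ⟨a, ha, b, hb, rfl⟩ := hdecomp v
    rw [← sact_of_right_eq_one s hsr, sact_add, hαp a ha, hαm b hb, h, smul_mulVec, one_mulVec,
      smul_add]
  · right
    refine ⟨αp, ext_iff_mulVec.mpr (fun v => ?_)⟩
    obtain ⟨a, ha, b, hb, rfl⟩ := hdecomp v
    rw [← sact_of_right_eq_one s hsr, sact_add, hαp a ha, hαm b hb, h, smul_mulVec, mulVec_add,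
      (hpm a).mp ha, (hmm b).mp hb, smul_add, neg_smul, smul_neg]

end main

end Cfsg.Agent.Lib.Helper97.OMinusBal
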